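import Groth.Agent.Flat2F.WeightLoc
import Mathlib.Topology.Semicontinuity.Defs

/-!
A nonnegative weighting of a locally quasi-finite morphism is upper semicontinuous.
-/

set_option autoImplicit false
universe u

namespace Groth.Agent.Old.H17.PosWeight

open AlgebraicGeometry CategoryTheory Limits Topology
open Groth.Agent.Flat2F
open FibreIntegral GeomPts ResSplit Split WeightLoc

variable {X Y : Scheme.{u}}

/-- The value of a nonnegative weight at a point is at most the fibre integral over an open which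
is finite over the base. -/
theorem le_fibreIntegral (f : X ⟶ Y) [LocallyQuasiFinite f] (w : X → ℤ) (hw : ∀ x, 0 ≤ w x)
    (U : X.Opens) [IsFinite (U.ι ≫ f)] (x : X) (hx : x ∈ U) :
    w x ≤ MoreMor.fibreIntegral (U.ι ≫ f) (fun x => w (U.ι x)) (f x) := by
  obtain ⟨K, _, _, ω, hω⟩ := exists_geometric_point Y (f x)
  rw [← hω]
  have h := fibreIntegral_ι f U w ω
  change w x ≤ MoreMor.fibreIntegral (U.ι ≫ f) (w ∘ U.ι) (ω (pt K))
  rw [h]
  obtain ⟨s, hs, hsx⟩ := exists_lift f ω x hω.symm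
  have hs' : s ∈ L f ω U := ⟨hs, hsx ▸ hx⟩
  rw [← hsx]
  have hfin := finite_L f U ω
  rw [finsum_mem_eq_finite_toFinset_sum _ hfin]
  exact Finset.single_le_sum (f := fun s => w (s (pt K))) (fun i _ => hw _)
    (hfin.mem_toFinset.mpr hs')

/-- At a split point the weight is locally bounded by its value. -/
theorem eventually_le_of_split (f : X ⟶ Y) [LocallyQuasiFinite f] (w : X → ℤ) 
    (hw : MoreMor.IsWeighting f w) (hpos : ∀ x, 0 ≤ w x) (x : X) (hx : Split f x) :
    ∃ N : X.Opens, x ∈ N ∧ ∀ x' ∈ N, w x' ≤ w x := by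
  obtain ⟨U, hxU, hfin, hU⟩ := hx
  have h1 : IsLocallyConstant (MoreMor.fibreIntegral (U.ι ≫ f) (fun u => w (U.ι u))) := by
    have := isLocallyConstant_of_isPullback (IsPullback.of_id_fst (f := f)) hw U
    simpa using this
  obtain ⟨N, hN, hxN, hc⟩ := (IsLocallyConstant.iff_exists_open _).mp h1 (f x)
  have h2 : MoreMor.fibreIntegral (U.ι ≫ f) (fun u => w (U.ι u)) (f x) = w x :=
    hU.fibreIntegral w hxU rfl
  refine ⟨U ⊓ f ⁻¹ᵁ ⟨N, hN⟩, ⟨hxU, hxN⟩, ?_⟩
  rintro x' ⟨hx'U, hx'N⟩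
  calc w x' ≤ MoreMor.fibreIntegral (U.ι ≫ f) (fun x => w (U.ι x)) (f x') :=
        le_fibreIntegral f w hpos U x' hx'U
    _ = MoreMor.fibreIntegral (U.ι ≫ f) (fun x => w (U.ι x)) (f x) := hc _ hx'N
    _ = w x := h2

/-- A nonnegative weighting is upper semicontinuous. -/
theorem exists_nhd (f : X ⟶ Y) [LocallyQuasiFinite f] [LocallyOfFiniteType f] (w : X → ℤ)
    (hw : MoreMor.IsWeighting f w) (hpos : ∀ x, 0 ≤ w x) (x : X) :
    ∃ N : X.Opens, x ∈ N ∧ ∀ x' ∈ N, w x' ≤ w x := by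
  obtain ⟨V, g, v, hg, hv, H⟩ := exists_splitOver_singleton f x
  obtain ⟨z, hz1, hz2⟩ := Scheme.Pullback.exists_preimage_pullback (f := f) (g := g) x v hv.symm
  have hs := H z hz1 hz2
  have hwe := isWeighting_of_isPullback (IsPullback.of_hasPullback f g) hw
  obtain ⟨N, hzN, hN⟩ := eventually_le_of_split (pullback.snd f g) _ hwe (fun z => hpos _) z hs
  have ho : IsOpenMap (pullback.fst f g) := (pullback.fst f g).isOpenMap
  refine ⟨⟨pullback.fst f g '' N, ho _ N.isOpen⟩, ⟨z, hzN, hz1⟩, ?_⟩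
  rintro x' ⟨z', hz', rfl⟩
  rw [← hz1]
  exact hN z' hz'

/-- A nonnegative weighting is upper semicontinuous. -/
theorem upperSemicontinuous (f : X ⟶ Y) [LocallyQuasiFinite f] [LocallyOfFiniteType f] (w : X → ℤ)
    (hw : MoreMor.IsWeighting f w) (hpos : ∀ x, 0 ≤ w x) : UpperSemicontinuous w := by
  intro x c hc
  obtain ⟨N, hxN, hN⟩ := exists_nhd f w hw hpos x
  filter_upwards [N.isOpen.mem_nhds hxN] with x' hx'
  exact (hN x' hx').trans_lt hc

end Groth.Agent.Old.H17.PosWeight
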